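import Cfsg.Agent.H493.AP.GL
import Cfsg.Agent.H324.AP.Trans
import Cfsg.Agent.H443.XC.Defs

/-!
# S4791, S4927, classical rows: block generators of `PSL_n(q)`, `e ≥ 2` (helper493)

`frmB_of_gl` : `H → GL(V)` injective with all `p`-elements of `GL(V)` in the image, `H → S` surjective with central kernel
without `p`-elements; `frmB_psl` : `S = PSL_n(q)`, `p ∤ q - 1`.
-/

set_option autoImplicit false

namespace Cfsg.Agent.H493.AP

open Submodule Module Cfsg.Agent.H324.AP Cfsg.Agent.H443.XC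

universe u v w w'

theorem frmB_of_gl {p : ℕ} [Fact p.Prime] {F : Type u} [Field F] [Finite F]
    (hpF : (p : F) ≠ 0) {V : Type v} [AddCommGroup V] [Module F V] [Finite V] [FiniteDimensional F V]
    {H : Type w} [Group H] {S : Type w'} [Group S] [Finite S] (φ : H →* (V ≃ₗ[F] V)) (hφ : Function.Injective φ)
    (hin : ∀ g : V ≃ₗ[F] V, ∀ k : ℕ, g ^ p ^ k = 1 → g ∈ φ.range) (π : H →* S) (hπ : Function.Surjective π)
    (hker : ∀ z, π z = 1 → ∀ x, z * x = x * z) (hkp : ∀ z, π z = 1 → ∀ k : ℕ, z ^ p ^ k = 1 → z = 1) {E : ℕ}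
    (hE1 : ((Nat.card F : ℕ) : ZMod p) ^ E = 1)
    (hA : ∀ P : Sylow p S, ∀ x ∈ (P : Subgroup S), ∀ y ∈ (P : Subgroup S), x * y = y * x)
    (hP : ∀ P : Sylow p S, ¬ IsCyclic (P : Subgroup S)) : FrmB p S E := by
  have hfin : Finite (V ≃ₗ[F] V) := Finite.of_injective (fun g : V ≃ₗ[F] V => (g : V → V)) DFunLike.coe_injective
  have hHfin : Finite H := Finite.of_injective φ hφ
  intro P
  refine ⟨hA P, ?_⟩
  obtain ⟨P', hP'⟩ := Sylow.mapSurjective_surjective hπ p P
  have hmap : (P' : Subgroup H).map π = P := by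
    rw [← hP']
    rfl
  have hkerP : ∀ z ∈ (P' : Subgroup H), π z = 1 → z = 1 := by
    intro z hz h1
    obtain ⟨k, hk⟩ := P'.2 ⟨z, hz⟩
    exact hkp z h1 k (congrArg Subtype.val hk)
  have hπP : ∀ z ∈ (P' : Subgroup H), π z ∈ (P : Subgroup S) := fun z hz => by
    rw [← hmap]; exact Subgroup.mem_map_of_mem π hz
  have hSyl : Syl p ⊤ ((P' : Subgroup H).map φ) := by
    refine ⟨le_top, P'.2.map φ, fun Q _ hQ hle => ?_⟩
    have h1 : Q ≤ φ.range := by
      intro g hg
      obtain ⟨k, hk⟩ := hQ ⟨g, hg⟩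
      exact hin g k (congrArg Subtype.val hk)
    have h2 : IsPGroup p (Q.comap φ) := hQ.comap_of_injective φ hφ
    have h3 : (P' : Subgroup H) ≤ Q.comap φ := Subgroup.map_le_iff_le_comap.1 hle
    have h4 : Q.comap φ = P' := P'.3 h2 h3
    rw [← h4, Subgroup.map_comap_eq_self h1]
  have hab' : ∀ a ∈ (P' : Subgroup H).map φ, ∀ b ∈ (P' : Subgroup H).map φ, a * b = b * a := by
    rintro _ ⟨a, ha, rfl⟩ _ ⟨b, hb, rfl⟩
    rw [← map_mul, ← map_mul]
    congr 1
    have h1 : π (a * b * (b * a)⁻¹) = 1 := by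
      rw [map_mul, map_inv, map_mul, map_mul, hA P _ (hπP a ha) _ (hπP b hb), mul_inv_cancel]
    exact mul_inv_eq_one.1 (hkerP _ (P'.mul_mem (P'.mul_mem ha hb) (P'.inv_mem (P'.mul_mem hb ha))) h1)
  have hnc : ¬ IsCyclic ((P' : Subgroup H).map φ) := by
    intro hc
    apply hP P
    obtain ⟨⟨z, hz⟩, hgen⟩ := hc.exists_generator
    obtain ⟨y, hy, rfl⟩ := Subgroup.mem_map.1 hz
    refine ⟨⟨⟨π y, hπP y hy⟩, fun c => ?_⟩⟩
    obtain ⟨c, hc⟩ := c
    have hc' := hc
    rw [← hmap] at hc'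
    obtain ⟨c', hc1, rfl⟩ := Subgroup.mem_map.1 hc'
    obtain ⟨n, hn⟩ := Subgroup.mem_zpowers_iff.1 (hgen ⟨φ c', Subgroup.mem_map_of_mem φ hc1⟩)
    have h1 : φ (y ^ n) = φ c' := by
      rw [map_zpow]
      exact congrArg Subtype.val hn
    refine Subgroup.mem_zpowers_iff.2 ⟨n, Subtype.ext ?_⟩
    change (π y) ^ n = π c'
    rw [← hφ h1, map_zpow]
  obtain ⟨n, x, hn, hx⟩ := exists_bg_gl hpF hSyl hab' hnc hE1
  obtain ⟨y, hy⟩ := bg_trans φ hφ (fun _ => Subgroup.mem_top _) π hker hkp hπ hmap hx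
  exact ⟨n, y, hn, hy⟩

/-- elements of `p`-power order in `Fˣ`, `p ∤ q - 1` -/
theorem unit_eq_one {p : ℕ} [hp : Fact p.Prime] {F : Type u} [Field F] [Fintype F]
    (h1 : orderOf ((Fintype.card F : ℕ) : ZMod p) ≠ 1) {a : F} {k : ℕ} (ha : a ^ p ^ k = 1) : a = 1 := by
  have ha0 : a ≠ 0 := by
    rintro rfl
    rw [zero_pow (pow_ne_zero _ hp.out.ne_zero)] at ha
    exact zero_ne_one ha
  have h2 : a ^ (Fintype.card F - 1) = 1 := FiniteField.pow_card_sub_one_eq_one a ha0
  have h3 : Nat.Coprime (p ^ k) (Fintype.card F - 1) := by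
    refine Nat.Coprime.pow_left k ((Nat.Prime.coprime_iff_not_dvd hp.out).2 fun hd => h1 ?_)
    rw [orderOf_eq_one_iff]
    have h4 : ((Fintype.card F - 1 : ℕ) : ZMod p) = 0 := (ZMod.natCast_eq_zero_iff _ _).2 hd
    rw [Nat.cast_sub Fintype.card_pos, Nat.cast_one, sub_eq_zero] at h4
    exact h4
  exact orderOf_eq_one_iff.1 (Nat.eq_one_of_dvd_coprimes h3 (orderOf_dvd_of_pow_eq_one ha)
    (orderOf_dvd_of_pow_eq_one h2))

/-- **`PSL_n(q)`, `p ∤ q - 1`** -/
theorem frmB_psl {p r : ℕ} [hp : Fact p.Prime] [Fact r.Prime] (hrp : r ≠ p) {F : Type} [Field F] [Fintype F]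
    [CharP F r] {n : ℕ} {S : Type u} [Group S] [Finite S] (e : S ≃* Matrix.ProjectiveSpecialLinearGroup (Fin n) F)
    (h1 : dSL p (Fintype.card F) ≠ 1) (hA : AbSyl p S) (hP : ∀ P : Sylow p S, ¬ IsCyclic (P : Subgroup S)) :
    FrmB p S (dSL p (Fintype.card F)) := by
  have hpF : (p : F) ≠ 0 := by
    intro h0
    have h1 := (CharP.cast_eq_zero_iff F r p).1 h0
    exact hrp ((Nat.prime_dvd_prime_iff_eq Fact.out Fact.out).1 h1)
  let π : Matrix.SpecialLinearGroup (Fin n) F →* S :=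
    e.symm.toMonoidHom.comp (QuotientGroup.mk' (Subgroup.center (Matrix.SpecialLinearGroup (Fin n) F)))
  have hπ : Function.Surjective π := e.symm.surjective.comp (QuotientGroup.mk'_surjective _)
  have hker : ∀ z, π z = 1 → z ∈ Subgroup.center (Matrix.SpecialLinearGroup (Fin n) F) := by
    intro z hz
    have h1 : QuotientGroup.mk' (Subgroup.center (Matrix.SpecialLinearGroup (Fin n) F)) z = 1 :=
      (map_eq_one_iff _ e.symm.injective).1 hz
    exact (QuotientGroup.eq_one_iff z).1 h1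
  refine frmB_of_gl hpF (V := Fin n → F) Matrix.SpecialLinearGroup.toLin' Matrix.SpecialLinearGroup.toLin'_injective
    (fun g k hk => ?_) π hπ (fun z hz x => (Subgroup.mem_center_iff.1 (hker z hz) x).symm) (fun z hz k hk => ?_) ?_ hA hP
  · have h2 : LinearMap.det (g : (Fin n → F) →ₗ[F] (Fin n → F)) = 1 := by
      apply unit_eq_one (p := p) h1 (k := k)
      rw [← map_pow]
      have h3 : (g : (Fin n → F) →ₗ[F] (Fin n → F)) ^ p ^ k = 1 := by
        have h4 := aeval_X_pow (F := F) g (p ^ k)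
        rw [map_pow, Polynomial.aeval_X] at h4
        apply LinearMap.ext
        intro m
        have h5 := h4 m
        rw [hk] at h5
        exact h5
      rw [h3, map_one]
    let A : Matrix.SpecialLinearGroup (Fin n) F := ⟨LinearMap.toMatrix' (g : (Fin n → F) →ₗ[F] (Fin n → F)), by
      rw [LinearMap.det_toMatrix', h2]⟩
    refine ⟨A, ?_⟩
    apply LinearEquiv.toLinearMap_injective
    rw [Matrix.SpecialLinearGroup.toLin'_to_linearMap]
    exact Matrix.toLin'_toMatrix' _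
  · obtain ⟨a, ha, h2⟩ := Matrix.SpecialLinearGroup.mem_center_iff.1 (hker z hz)
    rcases Nat.eq_zero_or_pos n with hn | hn
    · subst hn
      exact Subsingleton.elim _ _
    · have h3 : a = 1 := by
        apply unit_eq_one (p := p) h1 (k := k)
        have h4 : (z : Matrix (Fin n) (Fin n) F) ^ p ^ k = 1 := by
          rw [← Matrix.SpecialLinearGroup.coe_pow, hk, Matrix.SpecialLinearGroup.coe_one]
        rw [← h2, ← map_pow] at h4
        have h5 := congrFun (congrFun h4 ⟨0, hn⟩) ⟨0, hn⟩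
        rw [Matrix.scalar_apply, Matrix.diagonal_apply_eq, Matrix.one_apply_eq] at h5
        exact h5
      apply Subtype.ext
      rw [← h2, h3, map_one]
      rfl
  · rw [Nat.card_eq_fintype_card]
    exact pow_orderOf_eq_one _

end Cfsg.Agent.H493.AP
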